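import Groth.Agent.Models.H60.SmoothFib
import Groth.Agent.Sga5.ProjSmooth

/-!
S3337 conditional on the conclusions of S3330 (uniqueness of minimal models in positive genus), S3332 (closed fibre
`P^1_k` if the minimal model is not unique, genus zero) and S3338 (a proper smooth model is minimal).
-/

set_option autoImplicit false
universe u
open CategoryTheory CategoryTheory.Limits AlgebraicGeometry

namespace Groth.Agent.Models.H60.Cond

variable (R : Type u) [CommRing R] [IsDomain R] [IsDiscreteValuationRing R]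

/-- S3337 from S3330, S3332 and S3338. -/
theorem smooth_of_cond
    (C X : Scheme.{u}) (f : C ⟶ Spec (CommRingCat.of (FractionRing R))) (p : X ⟶ Spec (CommRingCat.of R))
    (hC : Curve.IsSmoothProperCurve (FractionRing R) C f)
    (h30 : 0 < _root_.Models.curveGenus (FractionRing R) C f → ∀ (X₁ X₂ : Scheme.{u})
      (p₁ : X₁ ⟶ Spec (CommRingCat.of R)) (p₂ : X₂ ⟶ Spec (CommRingCat.of R)),
      _root_.Models.IsMinimalModel R X₁ p₁ C f → _root_.Models.IsMinimalModel R X₂ p₂ C f →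
      ∀ (g₁ : C ⟶ X₁), IsPullback g₁ f p₁ (Spec.map (CommRingCat.ofHom (algebraMap R (FractionRing R)))) →
      ∀ (g₂ : C ⟶ X₂), IsPullback g₂ f p₂ (Spec.map (CommRingCat.ofHom (algebraMap R (FractionRing R)))) →
      ∃ e : X₁ ≅ X₂, e.hom ≫ p₂ = p₁ ∧ g₁ ≫ e.hom = g₂)
    (h32 : _root_.Models.curveGenus (FractionRing R) C f = 0 → ∀ (X₁ X₂ X : Scheme.{u})
      (p₁ : X₁ ⟶ Spec (CommRingCat.of R)) (p₂ : X₂ ⟶ Spec (CommRingCat.of R)) (p : X ⟶ Spec (CommRingCat.of R)),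
      _root_.Models.IsMinimalModel R X₁ p₁ C f → _root_.Models.IsMinimalModel R X₂ p₂ C f →
      _root_.Models.IsMinimalModel R X p C f →
      ∀ (g₁ : C ⟶ X₁), IsPullback g₁ f p₁ (Spec.map (CommRingCat.ofHom (algebraMap R (FractionRing R)))) →
      ∀ (g₂ : C ⟶ X₂), IsPullback g₂ f p₂ (Spec.map (CommRingCat.ofHom (algebraMap R (FractionRing R)))) →
      (∀ e : X₁ ≅ X₂, e.hom ≫ p₂ = p₁ → g₁ ≫ e.hom ≠ g₂) →
      ∃ e : _root_.Models.specialFibre R X p ≅ CohB1.ProjSpace 1 (IsLocalRing.ResidueField R),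
        e.hom ≫ CohB1.ProjSpace.toSpec 1 (IsLocalRing.ResidueField R) =
          pullback.snd p (Spec.map (CommRingCat.ofHom (algebraMap R (IsLocalRing.ResidueField R)))))
    (h38 : ∀ (X : Scheme.{u}) (p : X ⟶ Spec (CommRingCat.of R)), _root_.Models.IsModel R X p C f →
      IsProper p → Smooth p → _root_.Models.IsMinimalModel R X p C f)
    (hgood : _root_.Models.HasGoodReduction R C f) (hX : _root_.Models.IsMinimalModel R X p C f) :
    Smooth p := by
  obtain ⟨X₀, p₀, hM₀, hpr₀, hsm₀⟩ := hgood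
  have hmin₀ := h38 X₀ p₀ hM₀ hpr₀ hsm₀
  obtain ⟨-, -, -, g₀, hg₀⟩ := id hM₀
  obtain ⟨-, -, -, g, hg⟩ := id hX.1.1
  by_cases hiso : ∃ e : X ≅ X₀, e.hom ≫ p₀ = p ∧ g ≫ e.hom = g₀
  · obtain ⟨e, he, -⟩ := hiso
    rw [← he]
    infer_instance
  · have hne : ∀ e : X ≅ X₀, e.hom ≫ p₀ = p → g ≫ e.hom ≠ g₀ := fun e h1 h2 => hiso ⟨e, h1, h2⟩
    have hg0 : _root_.Models.curveGenus (FractionRing R) C f = 0 := by
      by_contra hne0
      exact hiso (h30 (Nat.pos_of_ne_zero hne0) X X₀ p p₀ hX hmin₀ g hg g₀ hg₀)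
    obtain ⟨e, he⟩ := h32 hg0 X X₀ X p p₀ p hX hmin₀ hX g hg g₀ hg₀ hne
    have := hC.2.1
    refine SmoothFib.smooth_of_model R hX.1.1 ?_
    have hs : SmoothOfRelativeDimension 1 (CohB1.ProjSpace.toSpec 1 (IsLocalRing.ResidueField R)) :=
      Groth.Agent.Sga5.ProjSmooth.smooth_toSpec 1 _
    have hs' : Smooth (CohB1.ProjSpace.toSpec 1 (IsLocalRing.ResidueField R)) := hs.smooth
    have h2 : Smooth (e.hom ≫ CohB1.ProjSpace.toSpec 1 (IsLocalRing.ResidueField R)) := inferInstance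
    rw [← he]
    exact h2

end Groth.Agent.Models.H60.Cond
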