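import Groth.Prelude.Def_ModelsG
import Groth.Agent.S0429
import Mathlib.AlgebraicGeometry.Morphisms.SmoothFiber
import Mathlib.RingTheory.DiscreteValuationRing.Basic

/-!
Smoothness of a flat finite type morphism to the spectrum of a discrete valuation ring can be tested on the
closed fibre and on the generic fibre.
-/

set_option autoImplicit false
universe u
open CategoryTheory CategoryTheory.Limits AlgebraicGeometry

namespace Groth.Agent.Models.H60.SmoothFib

/-- A morphism factoring through the base: base change of smooth is smooth. -/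
theorem smooth_snd_of_factor {X S T T' : Scheme.{u}} (p : X ⟶ S) (b : T ⟶ S) (a : T' ⟶ T)
    (c : T' ⟶ S) (hc : a ≫ b = c) (h : Smooth (pullback.snd p b)) : Smooth (pullback.snd p c) := by
  subst hc
  have h1 : IsPullback (pullback.fst p b) (pullback.snd p b) p b := IsPullback.of_hasPullback _ _
  have h2 : IsPullback (pullback.fst p (a ≫ b)) (pullback.snd p (a ≫ b)) p (a ≫ b) :=
    IsPullback.of_hasPullback _ _
  have h3 := IsPullback.of_right' h2 h1
  exact MorphismProperty.of_isPullback (P := @Smooth) h3 h

variable (R : Type u) [CommRing R] [IsDomain R] [IsDiscreteValuationRing R]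

/-- A ring homomorphism from a discrete valuation ring to a field factors through the fraction field or the
residue field. -/
theorem factor (L : Type u) [Field L] (φ : R →+* L) :
    (∃ ψ : FractionRing R →+* L, ψ.comp (algebraMap R (FractionRing R)) = φ) ∨
      ∃ ψ : IsLocalRing.ResidueField R →+* L, ψ.comp (algebraMap R (IsLocalRing.ResidueField R)) = φ := by
  by_cases hinj : Function.Injective φ
  · left
    refine ⟨IsFractionRing.lift (A := R) (K := FractionRing R) (g := φ) hinj, ?_⟩
    ext x
    exact IsFractionRing.lift_algebraMap hinj x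
  · right
    have hker : RingHom.ker φ ≠ ⊥ := fun h => hinj ((RingHom.injective_iff_ker_eq_bot _).2 h)
    have hker2 : (RingHom.ker φ).IsPrime := RingHom.ker_isPrime _
    have hmax : IsLocalRing.maximalIdeal R ≤ RingHom.ker φ := by
      have := (hker2.isMaximal hker)
      exact (IsLocalRing.eq_maximalIdeal this).ge
    refine ⟨Ideal.Quotient.lift (IsLocalRing.maximalIdeal R) φ (fun a ha => hmax ha), ?_⟩
    ext x
    rfl

theorem smooth_of_fibres_aux {X : Scheme.{u}} (p : X ⟶ Spec (CommRingCat.of R))
    (h0 : Smooth (pullback.snd p (Spec.map (CommRingCat.ofHom (algebraMap R (FractionRing R))))))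
    (h1 : Smooth (pullback.snd p
      (Spec.map (CommRingCat.ofHom (algebraMap R (IsLocalRing.ResidueField R))))))
    (L : CommRingCat.{u}) (hL : IsField L) (φ : Spec L ⟶ Spec (CommRingCat.of R)) :
    Smooth (pullback.snd p φ) := by
  let _ := hL.toField
  obtain ⟨φ, rfl⟩ := Spec.map_surjective φ
  rcases factor R L φ.hom with ⟨ψ, hψ⟩ | ⟨ψ, hψ⟩
  · refine smooth_snd_of_factor p _ (Spec.map (CommRingCat.ofHom ψ)) _ ?_ h0
    rw [← Spec.map_comp, ← CommRingCat.ofHom_comp, hψ, CommRingCat.ofHom_hom]
  · refine smooth_snd_of_factor p _ (Spec.map (CommRingCat.ofHom ψ)) _ ?_ h1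
    rw [← Spec.map_comp, ← CommRingCat.ofHom_comp, hψ, CommRingCat.ofHom_hom]

theorem smooth_of_fibres {X : Scheme.{u}} (p : X ⟶ Spec (CommRingCat.of R)) [Flat p]
    [LocallyOfFinitePresentation p]
    (h0 : Smooth (pullback.snd p (Spec.map (CommRingCat.ofHom (algebraMap R (FractionRing R))))))
    (h1 : Smooth (pullback.snd p
      (Spec.map (CommRingCat.ofHom (algebraMap R (IsLocalRing.ResidueField R)))))) :
    Smooth p :=
  Smooth.of_smooth_fiberToSpecResidueField p fun _ =>
    smooth_of_fibres_aux R p h0 h1 _ (Field.toIsField _) _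

/-- The same with the generic fibre given by a pullback square. -/
theorem smooth_of_model {C X : Scheme.{u}} {f : C ⟶ Spec (CommRingCat.of (FractionRing R))}
    {p : X ⟶ Spec (CommRingCat.of R)} [Smooth f] (hM : _root_.Models.IsModel R X p C f)
    (h1 : Smooth (pullback.snd p
      (Spec.map (CommRingCat.ofHom (algebraMap R (IsLocalRing.ResidueField R)))))) :
    Smooth p := by
  obtain ⟨hfl, hft, hqc, g, hg⟩ := hM
  have hlfp : LocallyOfFinitePresentation p := Groth.Agent.S0429.result p
  refine smooth_of_fibres R p ?_ h1
  have e : pullback.snd p (Spec.map (CommRingCat.ofHom (algebraMap R (FractionRing R)))) =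
      hg.isoPullback.inv ≫ f := by
    rw [Iso.eq_inv_comp]
    exact hg.isoPullback_hom_snd
  rw [e]
  infer_instance

end Groth.Agent.Models.H60.SmoothFib
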